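import Cfsg.Agent.H183.RC.PartI
import Cfsg.Agent.H183.RC.Ub
import Cfsg.Agent.H297.RC.Classify
import Cfsg.Agent.H188.RC.MCase
import Cfsg.Agent.H366.RC.Swap
import Cfsg.Agent.H522.RC.Tor
import Cfsg.Agent.H522.RC.NoEig
import Cfsg.Agent.H273.RC.ChiBound
import Cfsg.Agent.StdL2.FGal
import Cfsg.Agent.S0252
import Cfsg.Agent.S0253
import Cfsg.Agent.S0254
import Cfsg.Agent.ClassicalGeometry.PSL2Basic

/-!
# S3510, row C: regular cycles for `PSL₂(F)` (helper183; pieces by helper273, helper397, helper297, helper188, helper366,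
helper522, helper588)

* `noCov` : no covers for `PSL₂(F)`, `|F| ≥ 7`, `|F| ≠ 9`;
* `rc_psl2` : the row.
-/

set_option autoImplicit false

namespace Cfsg.Agent.H183.RC

open Cfsg Matrix Cfsg.Agent.H106.RC

section arith

theorem card_small {a r q : ℕ} (ha : 2 ≤ a) (hr : r.Prime) (hq : q = a ^ r) (h7 : 7 ≤ q) (h9 : q ≠ 9) :
    16 ≤ q ∨ (q = 8 ∧ r = 3) := by
  have h2 := hr.two_le
  by_cases h4 : 4 ≤ a
  · left
    calc 16 = 4 ^ 2 := by norm_num
      _ ≤ a ^ 2 := Nat.pow_le_pow_left h4 2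
      _ ≤ a ^ r := Nat.pow_le_pow_right (by omega) h2
      _ = q := hq.symm
  · by_cases hr3 : r ≤ 3
    · have h5 : a = 2 ∨ a = 3 := by omega
      have h6 : r = 2 ∨ r = 3 := by omega
      rcases h5 with rfl | rfl <;> rcases h6 with rfl | rfl <;> norm_num at hq <;> omega
    · left
      calc 16 = 2 ^ 4 := by norm_num
        _ ≤ a ^ 4 := Nat.pow_le_pow_left ha 4
        _ ≤ a ^ r := Nat.pow_le_pow_right (by omega) (by omega)
        _ = q := hq.symm

theorem pow_big {n s : ℕ} (hn : 2 ≤ n) (hs : 3 ≤ s) : 7 ≤ n ^ s ∧ n ^ s ≠ 9 := by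
  by_cases h3 : 3 ≤ n
  · have : 27 ≤ n ^ s := calc 27 = 3 ^ 3 := by norm_num
      _ ≤ n ^ 3 := Nat.pow_le_pow_left h3 3
      _ ≤ n ^ s := Nat.pow_le_pow_right (by omega) hs
    omega
  · have h2 : n = 2 := by omega
    subst h2
    have h8 : 8 ≤ 2 ^ s := calc 8 = 2 ^ 3 := by norm_num
      _ ≤ 2 ^ s := Nat.pow_le_pow_right (by omega) hs
    refine ⟨by omega, fun h => ?_⟩
    have : 2 ∣ 2 ^ s := dvd_pow_self 2 (by omega)
    omega

theorem two_fields {p f a b r s q : ℕ} (hp : p.Prime) (hq : q = p ^ f) (ha : 2 ≤ a) (hb : 2 ≤ b) (hr : r.Prime)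
    (hs : s.Prime) (hrs : r ≠ s) (h1 : q = a ^ r) (h2 : q = b ^ s) :
    (7 ≤ a ∧ a ≠ 9) ∨ (7 ≤ b ∧ b ≠ 9) := by
  have hcop : Nat.Coprime r s := (Nat.coprime_primes hr hs).2 hrs
  obtain ⟨i, -, hi⟩ : ∃ i ≤ f, a = p ^ i :=
    (Nat.dvd_prime_pow hp).1 (by rw [← hq, h1]; exact dvd_pow_self a hr.ne_zero)
  obtain ⟨j, -, hj⟩ : ∃ j ≤ f, b = p ^ j :=
    (Nat.dvd_prime_pow hp).1 (by rw [← hq, h2]; exact dvd_pow_self b hs.ne_zero)
  have h3 : i * r = j * s := by
    apply Nat.pow_right_injective hp.two_le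
    change p ^ (i * r) = p ^ (j * s)
    rw [pow_mul, pow_mul, ← hi, ← hj, ← h1, ← h2]
  have hi0 : i ≠ 0 := by rintro rfl; rw [pow_zero] at hi; omega
  have hj0 : j ≠ 0 := by rintro rfl; rw [pow_zero] at hj; omega
  have hr2 := hr.two_le
  have hs2 := hs.two_le
  by_cases hs3 : 3 ≤ s
  · left
    obtain ⟨m, rfl⟩ : s ∣ i := hcop.symm.dvd_of_dvd_mul_right (Dvd.intro_left j h3.symm)
    rw [hi, mul_comm, pow_mul]
    apply pow_big _ hs3
    have : m ≠ 0 := by rintro rfl; exact hi0 (mul_zero _)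
    calc 2 ≤ p := hp.two_le
      _ = p ^ 1 := (pow_one p).symm
      _ ≤ p ^ m := Nat.pow_le_pow_right hp.pos (Nat.one_le_iff_ne_zero.2 this)
  · right
    have hr3 : 3 ≤ r := by omega
    obtain ⟨m, rfl⟩ : r ∣ j := hcop.dvd_of_dvd_mul_right (Dvd.intro_left i h3)
    rw [hj, mul_comm, pow_mul]
    apply pow_big _ hr3
    have : m ≠ 0 := by rintro rfl; exact hj0 (mul_zero _)
    calc 2 ≤ p := hp.two_le
      _ = p ^ 1 := (pow_one p).symm
      _ ≤ p ^ m := Nat.pow_le_pow_right hp.pos (Nat.one_le_iff_ne_zero.2 this)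

end arith

section card

variable {F : Type} [Field F] [Finite F]

theorem card_ps : ∃ d : ℕ, (d = 1 ∨ d = 2) ∧ Nat.card (PS F) * d = Nat.card F * (Nat.card F ^ 2 - 1) := by
  have := Fintype.ofFinite F
  refine ⟨Nat.gcd 2 (Nat.card F - 1), ?_, ?_⟩
  · exact (Nat.dvd_prime Nat.prime_two).1 (Nat.gcd_dvd_left 2 _)
  · have h := Cfsg.Agent.ClassicalGeometry.PSL2Basic.card_PSL2_gcd (F := F)
    rw [← Nat.card_eq_fintype_card] at h
    exact h

/-- J1: nonexceptional -/
theorem not_exc (h7 : 7 ≤ Nat.card F) (h9 : Nat.card F ≠ 9) : ¬ Exc (PS F) := by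
  obtain ⟨d, hd, hcard⟩ := card_ps (F := F)
  have key : ∀ n : ℕ, Nonempty (PS F ≃* alternatingGroup (Fin n)) → Nat.card (PS F) = Nat.card (alternatingGroup (Fin n)) :=
    fun n ⟨e⟩ => Nat.card_congr e.toEquiv
  have h5 : Nat.card (alternatingGroup (Fin 5)) = 60 := by
    rw [nat_card_alternatingGroup]; simp [Nat.factorial]
  have h6 : Nat.card (alternatingGroup (Fin 6)) = 360 := by
    rw [nat_card_alternatingGroup]; simp [Nat.factorial]
  have h8 : Nat.card (alternatingGroup (Fin 8)) = 20160 := by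
    rw [nat_card_alternatingGroup]; simp [Nat.factorial]
  generalize Nat.card F = q at *
  have hbd : q ≤ 40 ∨ 40320 < q * (q ^ 2 - 1) := by
    by_cases h : q ≤ 40
    · exact Or.inl h
    · right
      push Not at h
      calc 40320 < 41 * (41 ^ 2 - 1) := by norm_num
        _ ≤ q * (q ^ 2 - 1) := Nat.mul_le_mul h (Nat.sub_le_sub_right (Nat.pow_le_pow_left h 2) 1)
  have main : ∀ n, Nat.card (PS F) = n → (n = 60 ∨ n = 360 ∨ n = 20160) → False := by
    intro n hn hn'
    rw [hn] at hcard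
    rcases hbd with hq | hq
    · rcases hn' with rfl | rfl | rfl <;> rcases hd with rfl | rfl <;> interval_cases q <;> omega
    · rcases hn' with rfl | rfl | rfl <;> rcases hd with rfl | rfl <;> omega
  rintro (h | h | h)
  · exact main 60 ((key 5 h).trans h5) (Or.inl rfl)
  · exact main 360 ((key 6 h).trans h6) (Or.inr (Or.inl rfl))
  · exact main 20160 ((key 8 h).trans h8) (Or.inr (Or.inr rfl))

theorem card_ps_lt (K : Subfield F) (h2 : 2 ≤ Nat.card K) (h : Nat.card K ^ 2 ≤ Nat.card F) :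
    Nat.card (PS K) < Nat.card (PS F) := by
  obtain ⟨d, hd, hcard⟩ := card_ps (F := F)
  obtain ⟨d', hd', hcard'⟩ := card_ps (F := K)
  set k := Nat.card K
  set q := Nat.card F
  have h3 : 2 * k ≤ q := by nlinarith
  have h4 : 2 * k * (k ^ 2) ≤ q * (q ^ 2 - 1) := by
    apply Nat.mul_le_mul h3
    have h5 : k ^ 2 + 1 ≤ q ^ 2 := by nlinarith
    omega
  have h5 : k * (k ^ 2 - 1) < k * k ^ 2 := by
    apply Nat.mul_lt_mul_of_pos_left _ (by omega)
    have : 0 < k ^ 2 := by positivity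
    omega
  have h6 : 2 * (k * k ^ 2) ≤ Nat.card (PS F) * d := by rw [hcard, ← mul_assoc]; exact h4
  have h7 : Nat.card (PS K) ≤ k * (k ^ 2 - 1) := by
    rw [← hcard']
    rcases hd' with rfl | rfl <;> omega
  rcases hd with rfl | rfl <;> omega

end card

/-- no covers for `PSL₂(F)` -/
theorem noCov {F : Type} [Field F] [Finite F] (h7 : 7 ≤ Nat.card F) (h9 : Nat.card F ≠ 9)
    (hIH : IH (Nat.card (PS F))) : NoCov (PS F) := by
  classical
  intro G _ _ Ω _ _ _ N hE e ι _ x r hPF hcov _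
  have hN := hE.norm
  have hcen := hE.cent
  have h4 : 4 ≤ Nat.card F := by omega
  choose A σ hA using fun i => acts_exists hN e h4 (x i)
  have hσr : ∀ i, σ i ^ r i = 1 := fun i => sigma_pow hN h4 (hA i) (hPF.pow i)
  have hline : ¬ ∃ v : Fin 2 → F, v ≠ 0 ∧ ∀ i, FixL (A i) (σ i) v := by
    rintro ⟨v, hv, hfix⟩
    obtain ⟨ω, hω⟩ := partI (Ω := Ω) hE e h7 h9 x r A σ hA hPF.prime hPF.pow hPF.ne hPF.comm
      (fun i j h1 h2 => hPF.inj (h1.trans h2.symm)) (fun i j _ _ h => hPF.inj h) v hv hfix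
    obtain ⟨i, hi⟩ := hcov ω
    exact hω i hi
  have hcl := (classify hN hcen e h4 x r hPF A σ hA).resolve_left hline
  obtain ⟨i₀⟩ : Nonempty ι := by
    obtain ⟨ω⟩ := (inferInstance : Nonempty Ω)
    obtain ⟨i, _⟩ := hcov ω
    exact ⟨i⟩
  -- fixed fields
  set a : ι → ℕ := fun i => Nat.card {y : F // σ i y = y} with ha
  have ha2 : ∀ i, 2 ≤ a i := fun i => Cfsg.Agent.StdL2.FGal.one_lt_card_fixed (σ i)
  have hord : ∀ i, σ i ≠ 1 → Nat.card F = a i ^ r i := by
    intro i hi
    have h1 := Cfsg.Agent.StdL2.FGal.card_fixed (σ i)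
    have hp : Fact (r i).Prime := ⟨hPF.prime i⟩
    rwa [orderOf_eq_prime (hσr i) hi] at h1
  by_cases hall : ∀ i, σ i = 1
  · rcases hcl with hno | ⟨k, hk, -⟩
    · have hno' : ∀ i, NoEig (A i) := fun i => hno i (hall i)
      have hA1 : ∀ i, Acts e (x i) (A i) 1 := fun i => by
        have := hA i
        rwa [hall i] at this
      rcases (Cfsg.Agent.H522.RC.card_noEig hN hcen e h4 x r hPF A hA1 hno').2 h7 h9 with h1 | h1
      · have := Fintype.ofFinite F
        obtain ⟨ω, hω⟩ := ub_of (Ω := Ω) (fun χ hχ h1 t ht => Cfsg.Agent.H273.RC.chi_bound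
          (by rw [← Nat.card_eq_fintype_card]; omega) χ hχ h1 t ht) hE e h4 x A hA1 hno' h1
        obtain ⟨i, hi⟩ := hcov ω
        exact hω i hi
      · obtain ⟨j, hj⟩ := hcov.two hE hPF.ne i₀
        have hsub : Subsingleton ι := (Finite.card_le_one_iff_subsingleton).1 h1
        exact hj (Subsingleton.elim _ _)
    · exact hk (hall k)
  · push Not at hall
    obtain ⟨k, hk⟩ := hall
    by_cases hbig : ∃ i, σ i ≠ 1 ∧ 7 ≤ a i ∧ a i ≠ 9
    · obtain ⟨i, hi, hi7, hi9⟩ := hbig
      let K : Subfield F := RingHom.eqLocusField (σ i : F →+* F) (RingHom.id F)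
      have hK : ∀ y : F, y ∈ K ↔ σ i y = y := fun y => Iff.rfl
      have hKa : Nat.card K = a i := Nat.card_congr (Equiv.subtypeEquivRight hK)
      have hK4 : 4 ≤ Nat.card K := by omega
      have hfK : Fintype K := Fintype.ofFinite K
      have hK4' : 3 < Fintype.card K := by rw [← Nat.card_eq_fintype_card]; omega
      refine Cfsg.Agent.H188.RC.mcase_of (fun {G Ω F ι} _ _ _ _ _ _ {N} hE e h7 h9 _ x r A σ a1 a2 a3 a4 a5 a6 a7 v hv hf =>
        partI hE e h7 h9 x r A σ a1 a2 a3 a4 a5 a6 a7 v hv hf) hE e h7 h9 x r hPF A σ hA i hi K hK hK4 ?_ hcov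
      apply hIH (PS K) (Cfsg.Agent.TwoFusion.SLTwoFacts.isSimpleGroup_psl hK4')
        (Cfsg.Agent.H188.RC.not_comm_ps hK4)
      · exact Or.inl ⟨K, inferInstance, hfK, 2, le_rfl, fun _ => by
          rw [← Nat.card_eq_fintype_card]; omega, ⟨MulEquiv.refl _⟩⟩
      · exact not_exc (by omega) (by omega)
      · apply card_ps_lt K (by omega)
        rw [hKa, hord i hi]
        exact Nat.pow_le_pow_right (by omega) (hPF.prime i).two_le
    · push Not at hbig
      -- only one member has a field part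
      have huniq : ∀ i, i ≠ k → σ i = 1 := by
        intro i hik
        by_contra hi
        have hp : (ringChar F).Prime :=
          (CharP.char_is_prime_or_zero F (ringChar F)).resolve_right (CharP.char_ne_zero_of_finite F (ringChar F))
        obtain ⟨f, hf⟩ : ∃ f : ℕ, Nat.card F = ringChar F ^ f := by
          have := Fintype.ofFinite F
          obtain ⟨n, -, hn⟩ := FiniteField.card F (ringChar F)
          exact ⟨n, by rw [Nat.card_eq_fintype_card, hn]⟩
        rcases two_fields hp hf (ha2 i) (ha2 k) (hPF.prime i) (hPF.prime k) (fun h => hik (hPF.inj h)) (hord i hi)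
          (hord k hk) with h1 | h1
        · exact h1.2 (hbig i hi h1.1)
        · exact h1.2 (hbig k hk h1.1)
      have hsmall := card_small (ha2 k) (hPF.prime k) (hord k hk) h7 h9
      have hex : ∃ i, i ≠ k := hcov.two hE hPF.ne k
      rcases hcl with hno | ⟨k', hk', hr', v, w, hvw, hi, hv, hw⟩
      · rcases hsmall with h16 | ⟨h8, h3⟩
        · have := Fintype.ofFinite F
          exact Cfsg.Agent.H522.RC.tor_of hE e (fun x t hx ht hn => ub_of (fun χ hχ h1 t ht =>
            Cfsg.Agent.H273.RC.chi_bound (by rw [← Nat.card_eq_fintype_card]; omega) χ hχ h1 t ht) hE e h4 x t hx ht hn)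
            h16 x r hPF A σ hA k hk (fun i hi => ⟨huniq i hi, hno i (huniq i hi)⟩) hex hcov
        · obtain ⟨i, hik⟩ := hex
          have hA1 : Acts e (x i) (A i) 1 := by
            have := hA i
            rwa [huniq i hik] at this
          have h1 := Cfsg.Agent.H522.RC.noEig_pow hN hcen h4 hA1 (hno i (huniq i hik))
          rw [h8] at h1
          have h2 : orderOf (x i) = r i := by
            have hp : Fact (r i).Prime := ⟨hPF.prime i⟩
            exact orderOf_eq_prime (hPF.pow i) (hPF.ne i)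
          have h5 : r i ∣ 3 ^ 2 := by
            rw [← h2]
            exact orderOf_dvd_of_pow_eq_one h1
          have h6 : r i = 3 := (Nat.prime_dvd_prime_iff_eq (hPF.prime i) Nat.prime_three).1
            ((hPF.prime i).dvd_of_dvd_pow h5)
          exact hik (hPF.inj (h6.trans h3.symm))
      · have hkk : k' = k := by
          by_contra h
          exact hk' (huniq k' h)
        subst hkk
        rcases hsmall with h16 | ⟨h8, h3⟩
        · exact Cfsg.Agent.H366.RC.swap_of hE e (fun x r A σ a b c d f g h' v hv hf =>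
            partI hE e h7 h9 x r A σ a b c d f g h' v hv hf) h16 x r hPF A σ hA k' hk hr' huniq v w hvw hi hv hw hcov
        · omega

theorem rc_psl2 {S : Type} [Group S] [Finite S] (hE : ¬ Exc S) (hIH : IH (Nat.card S)) {F : Type} [Field F] [Finite F]
    (h4 : 4 ≤ Nat.card F) (e : S ≃* PS F) : RC S := by
  have := Fintype.ofFinite F
  have hcF := Nat.card_eq_fintype_card (α := F)
  have h3 : 3 < Fintype.card F := by omega
  have h6 : Nat.card F ≠ 6 := by
    intro h
    obtain ⟨n, hp, hn⟩ := FiniteField.card F (ringChar F)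
    rw [← hcF, h] at hn
    have h1 : (2 : ℕ) ∣ ringChar F ^ (n : ℕ) := by rw [← hn]; norm_num
    have h2 : (3 : ℕ) ∣ ringChar F ^ (n : ℕ) := by rw [← hn]; norm_num
    have h3 := (Nat.prime_dvd_prime_iff_eq Nat.prime_two hp).1 (Nat.prime_two.dvd_of_dvd_pow h1)
    have h4 := (Nat.prime_dvd_prime_iff_eq Nat.prime_three hp).1 (Nat.prime_three.dvd_of_dvd_pow h2)
    omega
  have h4' : Nat.card F ≠ 4 := by
    intro h
    apply hE
    obtain ⟨e'⟩ := Cfsg.Agent.S0252.result (F := F) (by rw [← hcF]; exact h)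
    exact Or.inl ⟨e.trans e'⟩
  have h5' : Nat.card F ≠ 5 := by
    intro h
    apply hE
    obtain ⟨e'⟩ := Cfsg.Agent.S0253.result (F := F) (by rw [← hcF]; exact h)
    exact Or.inl ⟨e.trans e'⟩
  have h9' : Nat.card F ≠ 9 := by
    intro h
    apply hE
    obtain ⟨e'⟩ := Cfsg.Agent.S0254.result (F := F) (by rw [← hcF]; exact h)
    exact Or.inr (Or.inl ⟨e.trans e'⟩)
  rw [Nat.card_congr e.toEquiv] at hIH
  have h := rc_of_noCov (Cfsg.Agent.TwoFusion.SLTwoFacts.isSimpleGroup_psl h3) (Cfsg.Agent.H188.RC.not_comm_ps h4)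
    (noCov (by omega) h9' hIH)
  exact RC.congr e.symm h

end Cfsg.Agent.H183.RC
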